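import Cfsg.Agent.H587.TO.Core

/-!
# An orbit of lines moved by transvections (helper587)

`transvection_orbit`: the multiplicative form of `core`.
-/

set_option autoImplicit false
set_option linter.style.haveILetI false
set_option linter.unusedVariables false

namespace Cfsg.Agent.H587.TO

open Subgroup

theorem transvection_orbit {A M : Type*} [Group A] [Group M] (ρ : A →* MulAut M) (B : Set A)
    (hB : ∀ b ∈ B, ∀ a, a * b * a⁻¹ ∈ B) (w : M) (hw3 : w ^ 3 = 1)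
    (hcomm : ∀ a b : A, Commute (ρ a w) (ρ b w))
    (hSE : ∀ u ∈ B, ∀ a b : A, ρ (u * a) w ∈ zpowers (ρ a w) → ρ (u * b) w ∈ zpowers (ρ b w) →
      ρ b w ∈ zpowers (ρ a w))
    (hmov : ∃ a, ρ a w ∉ zpowers w)
    (y : A) (hy : y ∈ B) (hyw : ρ y w = w) (r : M) (hr3 : r ^ 3 = 1)
    (hr : r ∈ closure (Set.range fun a => ρ a w)) (hyr : ρ y r = r)
    (hyv : ∀ a, ∃ k : ℕ, ρ (y * a) w = ρ a w * r ^ k) :
    r ∈ zpowers w ∧
    (∀ p ∈ Set.range (fun a => ρ a w), p ∉ zpowers w → ∀ a, ∃ i j : ℕ, ρ a w = p ^ i * w ^ j) ∧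
    (∀ p ∈ Set.range (fun a => ρ a w), p ∉ zpowers w → ∀ i j : ℕ, ∃ a, p ^ i * w ^ j ∈ zpowers (ρ a w)) ∧
    (∀ n : A, ρ n w ∈ zpowers w → ∃ k : ℕ, n * y ^ k ∉ B) := by
  classical
  set V : Subgroup M := closure (Set.range fun a => ρ a w) with hV
  have hVc : ∀ x y : V, x * y = y * x := by
    haveI : IsMulCommutative V := isMulCommutative_closure (by
      rintro _ ⟨a, rfl⟩ _ ⟨b, rfl⟩
      exact hcomm a b)
    exact fun x y => mul_comm' x y
  letI : CommGroup V := { (inferInstance : Group V) with mul_comm := hVc }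
  have ho : ∀ a, ρ a w ∈ V := fun a => subset_closure ⟨a, rfl⟩
  have hinvar : ∀ a, ∀ v ∈ V, ρ a v ∈ V := by
    intro a v hv
    have h1 : ρ a v ∈ V.map (ρ a).toMonoidHom := ⟨v, hv, rfl⟩
    rw [hV, MonoidHom.map_closure] at h1
    refine closure_mono ?_ h1
    rintro _ ⟨_, ⟨b, rfl⟩, rfl⟩
    exact ⟨a * b, by change ρ (a * b) w = ρ a (ρ b w); rw [map_mul]; rfl⟩
  have hcube : ∀ v : V, v ^ 3 = 1 := by
    rintro ⟨v, hv⟩
    apply Subtype.ext
    change v ^ 3 = 1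
    refine (closure_induction (p := fun x _ => x ∈ V ∧ x ^ 3 = 1) ?_ ?_ ?_ ?_ hv).2
    · rintro _ ⟨a, rfl⟩
      refine ⟨ho a, ?_⟩
      change (ρ a w) ^ 3 = 1
      rw [← map_pow, hw3, map_one]
    · exact ⟨one_mem _, one_pow 3⟩
    · rintro x y _ _ ⟨hx, hx3⟩ ⟨hy, hy3⟩
      have hxy : Commute x y := congrArg Subtype.val (hVc ⟨x, hx⟩ ⟨y, hy⟩)
      exact ⟨mul_mem hx hy, by rw [hxy.mul_pow, hx3, hy3, one_mul]⟩
    · rintro x _ ⟨hx, hx3⟩
      exact ⟨inv_mem hx, by rw [inv_pow, hx3, inv_one]⟩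
  letI : Module (ZMod 3) (Additive V) := AddCommGroup.zmodModule (n := 3) (fun x => hcube x.toMul)
  let φ : A → (V →* V) := fun a =>
    ((ρ a).toMonoidHom.comp V.subtype).codRestrict V fun v => hinvar a v v.2
  have hφ : ∀ a v, ((φ a v : V) : M) = ρ a v := fun a v => rfl
  let ρ' : A →* (Additive V →ₗ[ZMod 3] Additive V) :=
    { toFun := fun a => (MonoidHom.toAdditive (φ a)).toZModLinearMap 3
      map_one' := by
        refine LinearMap.ext fun x => ?_
        obtain ⟨v, rfl⟩ := Additive.ofMul.surjective x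
        change Additive.ofMul (φ 1 v) = Additive.ofMul v
        congr 1
        apply Subtype.ext
        rw [hφ, map_one]; rfl
      map_mul' := fun a b => by
        refine LinearMap.ext fun x => ?_
        obtain ⟨v, rfl⟩ := Additive.ofMul.surjective x
        change Additive.ofMul (φ (a * b) v) = Additive.ofMul (φ a (φ b v))
        congr 1
        apply Subtype.ext
        rw [hφ, hφ, hφ, map_mul]; rfl }
  have hρ' : ∀ a v, ρ' a (Additive.ofMul v) = Additive.ofMul (φ a v) := fun a v => rfl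
  have hw : w ∈ V := by
    have := ho 1
    rwa [map_one] at this
  set W : V := ⟨w, hw⟩ with hW
  set R : V := ⟨r, hr⟩ with hR
  have hρw : ∀ a, ρ' a (Additive.ofMul W) = Additive.ofMul ⟨ρ a w, ho a⟩ := fun a => rfl
  -- scalars
  have hnat : ∀ (n : ℕ) (v : V), ((n : ℕ) : ZMod 3) • Additive.ofMul v = Additive.ofMul (v ^ n) := by
    intro n v
    rw [Nat.cast_smul_eq_nsmul]; rfl
  have hscal : ∀ (c : ZMod 3) (v : V), c • Additive.ofMul v = Additive.ofMul (v ^ c.val) := by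
    intro c v
    rw [← hnat, ZMod.natCast_zmod_val]
  have hz : ∀ u v : V, (u : M) ∈ zpowers (v : M) ↔ ∃ c : ZMod 3, Additive.ofMul u = c • Additive.ofMul v := by
    intro u v
    constructor
    · rintro ⟨k, hk⟩
      refine ⟨(k : ZMod 3), ?_⟩
      rw [Int.cast_smul_eq_zsmul]
      change Additive.ofMul u = Additive.ofMul (v ^ k)
      congr 1
      exact Subtype.ext hk.symm
    · rintro ⟨c, hc⟩
      rw [hscal] at hc
      have h1 : u = v ^ c.val := Additive.ofMul.injective hc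
      rw [h1]
      exact ⟨(c.val : ℤ), by
        change (v : M) ^ ((c.val : ℕ) : ℤ) = _
        rw [zpow_natCast]; rfl⟩
  have hzw : ∀ a b, ρ a w ∈ zpowers (ρ b w) ↔ ∃ c : ZMod 3, ρ' a (Additive.ofMul W) = c • ρ' b (Additive.ofMul W) :=
    fun a b => hz ⟨ρ a w, ho a⟩ ⟨ρ b w, ho b⟩
  have hzw1 : ∀ a, ρ a w ∈ zpowers w ↔ ∃ c : ZMod 3, ρ' a (Additive.ofMul W) = c • Additive.ofMul W :=
    fun a => hz ⟨ρ a w, ho a⟩ W
  have hzn : ∀ a, ρ a w ∉ zpowers w ↔ ∀ c : ZMod 3, ρ' a (Additive.ofMul W) ≠ c • Additive.ofMul W := by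
    intro a
    rw [hzw1]
    push Not
    exact Iff.rfl
  obtain ⟨c1, c2, c3, c4⟩ := core ρ' B hB (Additive.ofMul W)
    (fun u hu a b ha hb => by
      rw [← hzw] at ha hb ⊢
      exact hSE u hu a b ha hb)
    (by obtain ⟨a, ha⟩ := hmov; exact ⟨a, (hzn a).1 ha⟩)
    y hy (by rw [hρw]; congr 1; exact Subtype.ext hyw) (Additive.ofMul R)
    (by rw [hρ']; congr 1; exact Subtype.ext hyr)
    (fun a => by
      obtain ⟨k, hk⟩ := hyv a
      refine ⟨(k : ZMod 3), ?_⟩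
      rw [hρw, hρw, hnat, ← ofMul_mul]
      congr 1
      exact Subtype.ext hk)
  refine ⟨?_, ?_, ?_, ?_⟩
  · exact (hz R W).2 c1
  · rintro p ⟨a, rfl⟩ hp b
    obtain ⟨i, j, hij⟩ := c2 a ((hzn a).1 hp) b
    refine ⟨i.val, j.val, ?_⟩
    rw [hρw, hρw, hscal, hscal, ← ofMul_mul] at hij
    exact congrArg Subtype.val (Additive.ofMul.injective hij)
  · rintro p ⟨a, rfl⟩ hp i j
    obtain ⟨b, c, hbc⟩ := c3 a ((hzn a).1 hp) (i : ZMod 3) (j : ZMod 3)
    refine ⟨b, ?_⟩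
    rw [hρw, hρw, hnat, hnat, ← ofMul_mul] at hbc
    exact (hz _ _).2 ⟨c, hbc⟩
  · intro n hn
    exact c4 n ((hzw1 n).1 hn)

end Cfsg.Agent.H587.TO
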