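import Mathlib

/-!
# An orbit of lines moved by transvections, over the field of three elements (helper587)
-/

set_option autoImplicit false
set_option linter.style.haveILetI false

namespace Cfsg.Agent.H587.TO

section Core

variable {A V : Type*} [Group A] [AddCommGroup V] [Module (ZMod 3) V]

theorem core (ρ : A →* (V →ₗ[ZMod 3] V)) (B : Set A)
    (hB : ∀ b ∈ B, ∀ a, a * b * a⁻¹ ∈ B) (w : V)
    (hSE : ∀ u ∈ B, ∀ a b : A, (∃ c : ZMod 3, ρ (u * a) w = c • ρ a w) →
      (∃ c : ZMod 3, ρ (u * b) w = c • ρ b w) → ∃ c : ZMod 3, ρ b w = c • ρ a w)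
    (hmov : ∃ a, ∀ c : ZMod 3, ρ a w ≠ c • w)
    (y : A) (hy : y ∈ B) (hyw : ρ y w = w) (r : V) (hyr : ρ y r = r)
    (hyv : ∀ a, ∃ k : ZMod 3, ρ (y * a) w = ρ a w + k • r) :
    (∃ c : ZMod 3, r = c • w) ∧
    (∀ a, (∀ c : ZMod 3, ρ a w ≠ c • w) → ∀ b, ∃ i j : ZMod 3, ρ b w = i • ρ a w + j • w) ∧
    (∀ a, (∀ c : ZMod 3, ρ a w ≠ c • w) → ∀ i j : ZMod 3, ∃ b, ∃ c : ZMod 3, i • ρ a w + j • w = c • ρ b w) ∧
    (∀ n : A, (∃ c : ZMod 3, ρ n w = c • w) → ∃ k : ℕ, n * y ^ k ∉ B) := by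
  have h22 : (2 : ZMod 3) * 2 = 1 := by decide
  haveI : Fact (Nat.Prime 3) := ⟨Nat.prime_three⟩
  have hmul : ∀ (a b : A) (v : V), ρ (a * b) v = ρ a (ρ b v) := fun a b v => by rw [map_mul]; rfl
  have hone : ∀ v : V, ρ 1 v = v := fun v => by rw [map_one]; rfl
  have hinv : ∀ (a : A) (v : V), ρ a (ρ a⁻¹ v) = v := fun a v => by
    rw [← hmul, mul_inv_cancel, hone]
  have hinv' : ∀ (a : A) (v : V), ρ a⁻¹ (ρ a v) = v := fun a v => by
    rw [← hmul, inv_mul_cancel, hone]
  -- (1)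
  have h1 : ∀ (a : A) (k : ZMod 3), (∀ c : ZMod 3, ρ a w ≠ c • w) → ρ (y * a) w = ρ a w + k • r → k • r ≠ 0 := by
    intro a k ha hk h0
    obtain ⟨c, hc⟩ := hSE y hy 1 a ⟨1, by rw [mul_one, hyw, hone, one_smul]⟩
      ⟨1, by rw [hk, h0, add_zero, one_smul]⟩
    rw [hone] at hc
    exact ha c hc
  have hr0 : r ≠ 0 := by
    obtain ⟨a, ha⟩ := hmov
    obtain ⟨k, hk⟩ := hyv a
    intro h
    exact h1 a k ha hk (by rw [h, smul_zero])
  have hpow : ∀ (n : ℕ), ρ (y ^ n) r = r := by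
    intro n
    induction n with
    | zero => rw [pow_zero, hone]
    | succ n ih => rw [pow_succ, hmul, hyr, ih]
  have hpow2 : ∀ (a : A) (k : ZMod 3), ρ (y * a) w = ρ a w + k • r → ∀ n : ℕ,
      ρ (y ^ n * a) w = ρ a w + ((n : ZMod 3) * k) • r := by
    intro a k hk n
    induction n with
    | zero => rw [pow_zero, one_mul, Nat.cast_zero, zero_mul, zero_smul, add_zero]
    | succ n ih =>
      rw [pow_succ', mul_assoc, hmul, ih, map_add, map_smul, hyr, ← hmul, hk]
      push_cast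
      rw [add_mul, one_mul, add_smul]
      abel
  -- all `o(a) + j r` are in the orbit
  have horb : ∀ a, (∀ c : ZMod 3, ρ a w ≠ c • w) → ∀ j : ZMod 3, ∃ b, ρ b w = ρ a w + j • r := by
    intro a ha j
    obtain ⟨k, hk⟩ := hyv a
    have hk0 : k ≠ 0 := by
      rintro rfl
      exact h1 a 0 ha hk (zero_smul _ _)
    refine ⟨y ^ (j * k⁻¹).val * a, ?_⟩
    rw [hpow2 a k hk, ZMod.natCast_zmod_val, mul_assoc, inv_mul_cancel₀ hk0, mul_one]
  -- `r ∉ <p>`
  have hrp : ∀ a, (∀ c : ZMod 3, ρ a w ≠ c • w) → ∀ c : ZMod 3, r ≠ c • ρ a w := by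
    intro a ha c hc
    obtain ⟨k, hk⟩ := hyv a
    obtain ⟨d, hd⟩ := hSE y hy 1 a ⟨1, by rw [mul_one, hyw, hone, one_smul]⟩
      ⟨1 + k * c, by rw [hk, add_smul, one_smul, mul_smul, ← hc]⟩
    rw [hone] at hd
    exact ha d hd
  -- (2), (3)
  have key : ∀ a, (∀ c : ZMod 3, ρ a w ≠ c • w) → ∀ b, (∀ c : ZMod 3, ρ b w ≠ c • w) →
      ∃ i j : ZMod 3, ρ b w = i • ρ a w + j • r := by
    intro a ha b hb
    set y' := a * y * a⁻¹ with hy'
    have hy'B : y' ∈ B := hB y hy a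
    have hy'v : ∀ b, ∃ k : ZMod 3, ρ (y' * b) w = ρ b w + k • ρ a r := by
      intro b
      obtain ⟨k, hk⟩ := hyv (a⁻¹ * b)
      refine ⟨k, ?_⟩
      have e1 : y' * b = a * (y * (a⁻¹ * b)) := by rw [hy']; group
      rw [e1, hmul, hk, map_add, map_smul, ← hmul, mul_inv_cancel_left]
    have hy'p : ρ (y' * a) w = ρ a w := by
      have e1 : y' * a = a * y := by rw [hy']; group
      rw [e1, hmul, hyw]
    have hfix : ∀ b, ρ (y' * b) w = ρ b w → ∃ c : ZMod 3, ρ b w = c • ρ a w := by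
      intro b hb
      exact hSE y' hy'B a b ⟨1, by rw [hy'p, one_smul]⟩ ⟨1, by rw [hb, one_smul]⟩
    -- the action on `r`
    obtain ⟨b₁, hb₁⟩ := horb a ha 1
    obtain ⟨e, he⟩ := hy'v b₁
    rw [one_smul] at hb₁
    have he' : ρ y' r = r + e • ρ a r := by
      rw [hmul, hb₁, map_add, ← hmul, hy'p] at he
      have := add_left_cancel (he.trans (add_assoc _ _ _))
      exact this
    have he0 : e ≠ 0 := by
      rintro rfl
      rw [zero_smul, add_zero] at he
      obtain ⟨c, hc⟩ := hfix b₁ he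
      rw [hb₁] at hc
      apply hrp a ha (c - 1)
      rw [sub_smul, one_smul, ← hc, add_sub_cancel_left]
    obtain ⟨k, hk⟩ := hy'v b
    obtain ⟨b₂, hb₂⟩ := horb b hb (-k * e⁻¹)
    have h3 : ρ (y' * b₂) w = ρ b₂ w := by
      rw [hmul, hb₂, map_add, map_smul, he', ← hmul, hk, smul_add, smul_smul]
      have : -k * e⁻¹ * e = -k := by rw [mul_assoc, inv_mul_cancel₀ he0, mul_one]
      rw [this, neg_smul]
      abel
    obtain ⟨c, hc⟩ := hfix b₂ h3
    refine ⟨c, k * e⁻¹, ?_⟩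
    rw [← hc, hb₂, add_assoc, ← add_smul]
    have : -k * e⁻¹ + k * e⁻¹ = 0 := by ring
    rw [this, zero_smul, add_zero]
  -- (4)
  have hrw : ∃ c : ZMod 3, r = c • w := by
    obtain ⟨a, ha⟩ := hmov
    obtain ⟨b₁, hb₁⟩ := horb a ha 1
    obtain ⟨b₂, hb₂⟩ := horb a ha 2
    rw [one_smul] at hb₁
    have q1 : ∀ c : ZMod 3, ρ (a⁻¹ * b₁) w ≠ c • w := by
      intro c hc
      have h4 := congrArg (ρ a) hc
      rw [← hmul, mul_inv_cancel_left, map_smul, hb₁] at h4
      apply hrp a ha (c - 1)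
      rw [sub_smul, one_smul, ← h4, add_sub_cancel_left]
    have q2 : ∀ c : ZMod 3, ρ (a⁻¹ * b₂) w ≠ c • w := by
      intro c hc
      have h4 := congrArg (ρ a) hc
      rw [← hmul, mul_inv_cancel_left, map_smul, hb₂] at h4
      apply hrp a ha (2 * (c - 1))
      rw [mul_smul, sub_smul, one_smul, ← h4, add_sub_cancel_left, smul_smul]
      rw [h22, one_smul]
    obtain ⟨i, j, hij⟩ := key _ q1 _ q2
    have h4 := congrArg (ρ a) hij
    rw [← hmul, mul_inv_cancel_left, map_add, map_smul, map_smul, ← hmul, mul_inv_cancel_left, hb₁,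
      hb₂] at h4
    -- h4 : p + 2 r = i (p + r) + j r'
    set y' := a * y * a⁻¹ with hy'
    have hy'p : ρ y' (ρ a w) = ρ a w := by
      rw [← hmul]
      have e1 : y' * a = a * y := by rw [hy']; group
      rw [e1, hmul, hyw]
    have hy'r : ρ y' (ρ a r) = ρ a r := by
      rw [← hmul]
      have e1 : y' * a = a * y := by rw [hy']; group
      rw [e1, hmul, hyr]
    obtain ⟨e, he⟩ : ∃ e : ZMod 3, ρ y' r = r + e • ρ a r := by
      obtain ⟨e, he⟩ := hyv (a⁻¹ * b₁)
      refine ⟨e, ?_⟩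
      have e1 : y' * b₁ = a * (y * (a⁻¹ * b₁)) := by rw [hy']; group
      have e2 : ρ (y' * b₁) w = ρ b₁ w + e • ρ a r := by
        rw [e1, hmul, he, map_add, map_smul, ← hmul, mul_inv_cancel_left]
      rw [hmul, hb₁, map_add, hy'p, add_assoc] at e2
      exact add_left_cancel e2
    have he0 : e ≠ 0 := by
      rintro rfl
      rw [zero_smul, add_zero] at he
      obtain ⟨c, hc⟩ := hSE y' (hB y hy a) a b₁ ⟨1, by rw [hmul, hy'p, one_smul]⟩
        ⟨1, by rw [hmul, hb₁, map_add, hy'p, he, one_smul]⟩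
      rw [hb₁] at hc
      apply hrp a ha (c - 1)
      rw [sub_smul, one_smul, ← hc, add_sub_cancel_left]
    have h5 := congrArg (ρ y') h4
    rw [map_add, map_add, map_smul, map_smul, map_smul, map_add, hy'p, hy'r, he] at h5
    have har0 : ρ a r ≠ 0 := by
      intro h
      apply hr0
      rw [← hinv' a r, h, map_zero]
    have h6 : ((2 - i) * e) • ρ a r = 0 := by
      have e1 : ρ a w + (2 : ZMod 3) • (r + e • ρ a r) - (ρ a w + (2 : ZMod 3) • r) =
          i • (ρ a w + (r + e • ρ a r)) + j • ρ a r - (i • (ρ a w + r) + j • ρ a r) := by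
        rw [h5, h4]
      have e2 : ρ a w + (2 : ZMod 3) • (r + e • ρ a r) - (ρ a w + (2 : ZMod 3) • r) = (2 * e) • ρ a r := by
        rw [smul_add, smul_smul]; abel
      have e3 : i • (ρ a w + (r + e • ρ a r)) + j • ρ a r - (i • (ρ a w + r) + j • ρ a r) =
          (i * e) • ρ a r := by
        rw [smul_add, smul_add, smul_add, smul_smul]; abel
      rw [e2, e3] at e1
      rw [sub_mul, sub_smul, e1, sub_self]
    have h7 : (2 - i) * e = 0 := (smul_eq_zero.1 h6).resolve_right har0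
    have hi : i = 2 := (sub_eq_zero.1 ((mul_eq_zero.1 h7).resolve_right he0)).symm
    rw [hi] at h4
    -- p = - j r'
    have h8 : ρ a w = -(j • ρ a r) := by
      have e1 : (2 : ZMod 3) • (ρ a w + r) = ρ a w + ρ a w + (2 : ZMod 3) • r := by
        rw [smul_add, two_smul]
      rw [e1] at h4
      have e2 : ρ a w + (2 : ZMod 3) • r = ρ a w + (2 : ZMod 3) • r + (ρ a w + j • ρ a r) := by
        nth_rewrite 1 [h4]; abel
      have e3 := left_eq_add.1 e2
      exact eq_neg_of_add_eq_zero_left e3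
    have hj0 : j ≠ 0 := by
      rintro rfl
      rw [zero_smul, neg_zero] at h8
      apply ha 0
      rw [h8, zero_smul]
    refine ⟨-j⁻¹, ?_⟩
    have h9 : ρ a r = (-j⁻¹) • ρ a w := by
      rw [h8, smul_neg, smul_smul]
      have : -j⁻¹ * j = -1 := by rw [neg_mul, inv_mul_cancel₀ hj0]
      rw [this, neg_smul, one_smul, neg_neg]
    have h10 := congrArg (ρ a⁻¹) h9
    rw [map_smul, hinv', hinv'] at h10
    exact h10
  obtain ⟨g, hg⟩ := hrw
  have hg0 : g ≠ 0 := by
    rintro rfl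
    rw [zero_smul] at hg
    exact hr0 hg
  refine ⟨⟨g, hg⟩, ?_, ?_, ?_⟩
  · intro a ha b
    by_cases hb : ∀ c : ZMod 3, ρ b w ≠ c • w
    · obtain ⟨i, j, hij⟩ := key a ha b hb
      exact ⟨i, j * g, by rw [hij, hg, smul_smul]⟩
    · push Not at hb
      obtain ⟨c, hc⟩ := hb
      exact ⟨0, c, by rw [zero_smul, zero_add, hc]⟩
  · intro a ha i j
    by_cases hi : i = 0
    · refine ⟨1, j, ?_⟩
      rw [hi, zero_smul, zero_add, hone]
    · obtain ⟨b, hb⟩ := horb a ha (i⁻¹ * j * g⁻¹)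
      refine ⟨b, i, ?_⟩
      rw [hb, hg, smul_add, smul_smul, smul_smul]
      congr 2
      field_simp
  · rintro n ⟨d, hd⟩
    obtain ⟨a, ha⟩ := hmov
    have hw0 : w ≠ 0 := by
      rintro rfl
      apply ha 0
      rw [map_zero, smul_zero]
    have hd0 : d ≠ 0 := by
      rintro rfl
      rw [zero_smul] at hd
      apply hw0
      rw [← hinv' n w, hd, map_zero]
    have hna : ∀ c : ZMod 3, ρ (n * a) w ≠ c • w := by
      intro c hc
      apply ha (c * d⁻¹)
      have h4 := congrArg (ρ n⁻¹) hc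
      have h5 := congrArg (ρ n⁻¹) hd
      rw [hinv', map_smul] at h5
      rw [hmul, hinv', map_smul] at h4
      have h6 : ρ n⁻¹ w = d⁻¹ • w := by
        rw [eq_inv_smul_iff₀ hd0]; exact h5.symm
      rw [h4, h6, smul_smul]
    obtain ⟨i, j, hij⟩ := key a ha (n * a) hna
    obtain ⟨k, hk⟩ := hyv a
    have hk0 : k ≠ 0 := by
      rintro rfl
      exact h1 a 0 ha hk (zero_smul _ _)
    -- n y^l p = n p + l k n r = i p + j r + l k d r
    have hnr : ρ n r = d • r := by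
      rw [hg, map_smul, hd, smul_comm]
    refine ⟨(-j * (k * d)⁻¹).val, ?_⟩
    intro hmem
    obtain ⟨c, hc⟩ := hSE _ hmem 1 a ⟨d, by
        rw [mul_one, hmul, hone]
        have : ∀ l : ℕ, ρ (y ^ l) w = w := by
          intro l
          induction l with
          | zero => rw [pow_zero, hone]
          | succ l ih => rw [pow_succ, hmul, hyw, ih]
        rw [this, hd]⟩ ⟨i, by
        rw [mul_assoc, hmul, hpow2 a k hk, map_add, map_smul, hnr, ← hmul, hij, ZMod.natCast_zmod_val,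
          smul_smul, add_assoc, ← add_smul]
        have : j + -j * (k * d)⁻¹ * k * d = 0 := by
          field_simp
          ring
        rw [this, zero_smul, add_zero]⟩
    rw [hone] at hc
    exact ha c hc

end Core

end Cfsg.Agent.H587.TO
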